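/-
Project T3: `C(z)/Q` acts faithfully on `Q/⟨z⟩` and the centre of `O₂(C(z)/Q)` acts as `-1`.
-/
import Cfsg.Agent.T3.Fr1a
import Cfsg.Agent.H3.Transfer2

set_option autoImplicit false
set_option linter.unusedSectionVars false
set_option linter.unusedVariables false
set_option linter.unusedSimpArgs false

namespace Cfsg.Agent.T3

open Subgroup H49

variable {G : Type*} [Group G] {H : Type*} [Group H] {B : Type*} [Group B]

/-- the alternating group of degree five -/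
abbrev A5 : Type := alternatingGroup (Fin 5)

theorem a5_three : ∃ σ : A5, σ ≠ 1 ∧ σ ^ 3 = 1 :=
  ⟨⟨Equiv.swap 0 1 * Equiv.swap 0 2, Equiv.Perm.mem_alternatingGroup.2 (by decide)⟩, by decide, by decide⟩

theorem a5_four : ∃ σ τ ρ : A5, σ * σ = 1 ∧ τ * τ = 1 ∧ σ * τ * σ⁻¹ * τ⁻¹ = 1 ∧ σ ≠ 1 ∧ τ ≠ 1 ∧
    σ * τ ≠ 1 ∧ ρ * σ * ρ⁻¹ * σ ≠ 1 ∧ ρ * τ * ρ⁻¹ * τ ≠ 1 ∧ ρ * (σ * τ) * ρ⁻¹ * (σ * τ) ≠ 1 :=
  ⟨⟨Equiv.swap 0 1 * Equiv.swap 2 3, Equiv.Perm.mem_alternatingGroup.2 (by decide)⟩, ⟨Equiv.swap 0 2 * Equiv.swap 1 3, Equiv.Perm.mem_alternatingGroup.2 (by decide)⟩,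
    ⟨Equiv.swap 0 1 * Equiv.swap 0 2, Equiv.Perm.mem_alternatingGroup.2 (by decide)⟩, by decide, by decide, by decide, by decide, by decide,
    by decide, by decide, by decide, by decide⟩

theorem modEq_five [Finite G] {f : G} (hf : orderOf f = 5) {W : Subgroup G} (hn : f ∈ 𝒩(W)) :
    Nat.card W % 5 = Nat.card ↥(W ⊓ 𝒞[f]) % 5 := by
  have : Fact (Nat.Prime 5) := ⟨by decide⟩
  have := H3.card_modEq_card_inf_centralizer (q := 5) (S := zpowers f) (Q := W)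
    (IsPGroup.of_card (n := 1) (by rw [Nat.card_zpowers, hf]; rfl)) (zpowers_le.2 hn)
  rwa [cent_zpowers] at this

/-- The hypotheses of the theorem, transported into `G`. -/
structure H1 (z t : G) (Q P S : Subgroup G) (π : G → H) (ψ : G → B) (φ : G → A5) : Prop
    extends E0 z Q π where
  nQ' : 𝒩(zpowers z) ≤ 𝒩(Q)
  syl : ¬ 3 ^ 7 ∣ Nat.card G
  cardC : Nat.card 𝒞[z] = 243 * 1920
  QP : Q ≤ P
  Pc : P ≤ 𝒞[z]
  nP : 𝒞[z] ≤ 𝒩(P)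
  cardP : Nat.card P = 243 * 32
  tP : t ∈ P
  ψh : MC3.PH 𝒞[z] ψ
  ψker : ∀ g ∈ 𝒞[z], ψ g = 1 ↔ g ∈ Q
  tne : ψ t ≠ 1
  tsq : ψ t * ψ t = 1
  tc : ∀ a ∈ P, Commute (ψ a) (ψ t)
  Pcomm : ∀ a ∈ P, ∀ b ∈ P, ψ a * ψ b * (ψ a)⁻¹ * (ψ b)⁻¹ = 1 ∨ ψ a * ψ b * (ψ a)⁻¹ * (ψ b)⁻¹ = ψ t
  Psq : ∀ a ∈ P, ψ a * ψ a = 1 ∨ ψ a * ψ a = ψ t
  Pcen : ∀ a ∈ P, (∀ b ∈ P, Commute (ψ a) (ψ b)) → ψ a = 1 ∨ ψ a = ψ t
  nab : ∃ a ∈ P, ∃ b ∈ P, ¬ Commute (ψ a) (ψ b)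
  φh : MC3.PH 𝒞[z] φ
  φker : ∀ g ∈ 𝒞[z], φ g = 1 ↔ g ∈ P
  φsurj : ∀ σ, ∃ g ∈ 𝒞[z], φ g = σ
  Ssyl : H42.SylIn 3 S 𝒞[z]
  Sz : ∀ s ∈ S, s ∈ 𝒞(S) → s ∈ zpowers z
  nwc : ∃ g : G, g * z * g⁻¹ ∈ 𝒞[z] ∧ g * z * g⁻¹ ∉ zpowers z

namespace H1

variable {z t : G} {Q P S : Subgroup G} {π : G → H} {ψ : G → B} {φ : G → A5}
  (h : H1 z t Q P S π ψ φ)

/-- the preimage of the centre of `P/Q` -/
def T0 : Subgroup G where
  carrier := {g | g ∈ 𝒞[z] ∧ (ψ g = 1 ∨ ψ g = ψ t)}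
  one_mem' := ⟨one_mem _, Or.inl h.ψh.one⟩
  mul_mem' := by
    rintro a b ⟨ha, ha'⟩ ⟨hb, hb'⟩
    refine ⟨mul_mem ha hb, ?_⟩
    rw [h.ψh.mul _ ha _ hb]
    rcases ha' with e | e <;> rcases hb' with e' | e' <;> simp [e, e', h.tsq]
  inv_mem' := by
    rintro a ⟨ha, ha'⟩
    refine ⟨inv_mem ha, ?_⟩
    rw [h.ψh.inv ha]
    rcases ha' with e | e
    · simp [e]
    · exact Or.inr (by rw [e]; exact inv_eq_of_mul_eq_one_right h.tsq)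

/-- the centraliser of `P/Q` -/
def D2 : Subgroup G where
  carrier := {g | g ∈ 𝒞[z] ∧ ∀ a ∈ P, Commute (ψ g) (ψ a)}
  one_mem' := ⟨one_mem _, fun q _ => by rw [h.ψh.one]; exact Commute.one_left _⟩
  mul_mem' := by
    rintro a b ⟨ha, ha'⟩ ⟨hb, hb'⟩
    exact ⟨mul_mem ha hb, fun q hq => by rw [h.ψh.mul _ ha _ hb]; exact (ha' q hq).mul_left (hb' q hq)⟩
  inv_mem' := by
    rintro a ⟨ha, ha'⟩
    exact ⟨inv_mem ha, fun q hq => by rw [h.ψh.inv ha]; exact (ha' q hq).inv_left⟩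

/-- the elements acting as scalars on `Q/⟨z⟩` -/
def Kpm : Subgroup G where
  carrier := {g | g ∈ 𝒞[z] ∧ (Q ≤ h.toE0.Vs g 1 ∨ Q ≤ h.toE0.Vs g (-1))}
  one_mem' := ⟨one_mem _, Or.inl ((h.toE0.mem_K_iff (one_mem _)).1 (one_mem _))⟩
  mul_mem' := by
    rintro a b ⟨ha, ha'⟩ ⟨hb, hb'⟩
    refine ⟨mul_mem ha hb, ?_⟩
    rcases ha' with e | e <;> rcases hb' with e' | e'
    · exact Or.inl fun q hq => by simpa using h.toE0.Vs_mul ha hb (e hq) (e' hq)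
    · exact Or.inr fun q hq => by simpa using h.toE0.Vs_mul ha hb (e hq) (e' hq)
    · exact Or.inr fun q hq => by simpa using h.toE0.Vs_mul ha hb (e hq) (e' hq)
    · exact Or.inl fun q hq => by simpa using h.toE0.Vs_mul ha hb (e hq) (e' hq)
  inv_mem' := by
    rintro a ⟨ha, ha'⟩
    refine ⟨inv_mem ha, ?_⟩
    rcases ha' with e | e
    · exact Or.inl ((h.toE0.mem_K_iff (inv_mem ha)).1 (inv_mem ((h.toE0.mem_K_iff ha).2 e)))
    · refine Or.inr fun q hq => ?_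
      have k : a * a ∈ h.toE0.K := (h.toE0.mem_K_iff (mul_mem ha ha)).2 fun q hq => by
        simpa using h.toE0.Vs_mul ha ha (e hq) (e hq)
      have := h.toE0.Vs_mul_K ha (inv_mem k) (e hq)
      rwa [show (a * a)⁻¹ * a = a⁻¹ by group] at this

include h

theorem conjP {g a : G} (hg : g ∈ 𝒞[z]) (ha : a ∈ P) : g * a * g⁻¹ ∈ P := conj_mem_of_norm h.nP hg ha

theorem tC : t ∈ 𝒞[z] := h.Pc h.tP

theorem nD2 : 𝒞[z] ≤ 𝒩(h.D2) := le_norm_iff.2 fun c hc g hg => by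
  refine ⟨mul_mem (mul_mem hc hg.1) (inv_mem hc), fun a ha => ?_⟩
  have h1 := (hg.2 _ (h.conjP (inv_mem hc) ha)).eq
  rw [h.ψh.conj (inv_mem hc) (h.Pc ha), h.ψh.inv hc] at h1
  rw [h.ψh.conj hc hg.1]
  change ψ c * ψ g * (ψ c)⁻¹ * ψ a = ψ a * (ψ c * ψ g * (ψ c)⁻¹)
  calc ψ c * ψ g * (ψ c)⁻¹ * ψ a = ψ c * (ψ g * ((ψ c)⁻¹ * ψ a * (ψ c)⁻¹⁻¹)) * (ψ c)⁻¹ := by group
    _ = _ := by rw [h1]; group

theorem tD2 : t ∈ h.D2 := ⟨h.tC, fun a ha => (h.tc a ha).symm⟩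

theorem tcC {g : G} (hg : g ∈ 𝒞[z]) : ψ g * ψ t * (ψ g)⁻¹ = ψ t := by
  have h1 := conj_mem_of_norm h.nD2 hg h.tD2
  rcases h.Pcen _ (h.conjP hg h.tP) h1.2 with e | e
  · rw [h.ψh.conj hg h.tC] at e
    exact absurd (by simpa using e) h.tne
  · rwa [h.ψh.conj hg h.tC] at e

theorem nT0 : 𝒞[z] ≤ 𝒩(h.T0) := le_norm_iff.2 fun c hc g hg => by
  refine ⟨mul_mem (mul_mem hc hg.1) (inv_mem hc), ?_⟩
  rw [h.ψh.conj hc hg.1]
  rcases hg.2 with e | e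
  · simp [e]
  · exact Or.inr (by rw [e, h.tcC hc])

theorem QT0 : Q ≤ h.T0 := fun q hq => ⟨h.Qc hq, Or.inl ((h.ψker q (h.Qc hq)).2 hq)⟩

theorem tT0 : t ∈ h.T0 := ⟨h.tC, Or.inr rfl⟩

theorem T0_le {W : Subgroup G} (hQ : Q ≤ W) (ht : t ∈ W) : h.T0 ≤ W := fun g hg => by
  rcases hg.2 with e | e
  · exact hQ ((h.ψker g hg.1).1 e)
  · have := hQ ((h.ψker _ (mul_mem hg.1 (inv_mem h.tC))).1 (by rw [h.ψh.div hg.1 h.tC, e]; simp))
    simpa using mul_mem this ht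

theorem cardT0 : Nat.card h.T0 = 486 := by
  have h1 := card_mul_relIndex h.QT0
  have h2 : Q.relIndex h.T0 = 2 := relIndex_eq_two_iff.2 ⟨t, h.tT0, fun b hb => by
    rw [← h.ψker _ (mul_mem hb.1 h.tC), ← h.ψker _ hb.1, h.ψh.mul _ hb.1 _ h.tC]
    rcases hb.2 with e | e
    · simp [e, h.tne]
    · simp [e, h.tne, h.tsq]⟩
  rw [h2, h.card] at h1
  omega

theorem nKpm : 𝒞[z] ≤ 𝒩(h.Kpm) := le_norm_iff.2 fun c hc g hg => by
  refine ⟨mul_mem (mul_mem hc hg.1) (inv_mem hc), hg.2.imp ?_ ?_⟩ <;>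
  · intro e q hq
    have := h.toE0.Vs_conj hc hg.1 (e (h.toE0.conjQ (inv_mem hc) hq))
    rwa [show c * (c⁻¹ * q * c⁻¹⁻¹) * c⁻¹ = q by group] at this

theorem normal_cases {N : Subgroup G} (hN : N ≤ 𝒞[z]) (hn : 𝒞[z] ≤ 𝒩(N)) :
    N ≤ P ∨ ∀ σ, ∃ n ∈ N, φ n = σ := by
  have hi : (h.φh.mono hN).im.Normal := ⟨fun a ha σ => by
    obtain ⟨n, hn', rfl⟩ := (MC3.PH.mem_im _).1 ha
    obtain ⟨g, hg, rfl⟩ := h.φsurj σ
    exact (MC3.PH.mem_im _).2 ⟨_, conj_mem_of_norm hn hg hn', h.φh.conj hg (hN hn')⟩⟩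
  rcases hi.eq_bot_or_eq_top with e | e
  · exact Or.inl fun n hn' => (h.φker n (hN hn')).1
      (mem_bot.1 (e ▸ (MC3.PH.mem_im _).2 ⟨n, hn', rfl⟩))
  · exact Or.inr fun σ => (MC3.PH.mem_im (h.φh.mono hN)).1 (e ▸ mem_top σ)

variable [Finite G]

theorem card_le {T : Subgroup G} (hT : IsPGroup 3 T) : Nat.card T ≤ 729 := by
  obtain ⟨k, hk⟩ := MC3.card_pow_of_isP hT
  refine pow3_le (n := 6) hk ?_
  by_contra hc
  have h1 : 7 ≤ k := by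
    rw [hk, not_lt] at hc
    exact (Nat.pow_le_pow_iff_right (by decide)).1 hc
  exact h.syl ((Nat.pow_dvd_pow 3 h1).trans (hk ▸ card_subgroup_dvd_card T))

theorem QS : Q ≤ S := MC3.le_syl_of_norm h.Ssyl h.toE0.Qp h.Qc (Or.inr (h.Ssyl.le.trans h.nQ))

theorem D_le : 𝒞[z] ⊓ 𝒞(Q) ≤ P := by
  have : Fact (Nat.Prime 3) := ⟨Nat.prime_three⟩
  refine (h.normal_cases inf_le_left (norm_inf le_normalizer (norm_cent h.nQ))).resolve_right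
    fun hs => ?_
  obtain ⟨σ, hσ, h3⟩ := a5_three
  obtain ⟨n, hn, rfl⟩ := hs σ
  obtain ⟨k, m, hm, e⟩ := Nat.exists_eq_pow_mul_and_not_dvd (orderOf_pos n).ne' 3 (by decide)
  have d3 : (n ^ m) ^ 3 ^ k = 1 := by rw [← pow_mul, mul_comm, ← e, pow_orderOf_eq_one]
  have dP : n ^ m ∉ P := fun hp => by
    have h1 := (h.φker _ (h.Pc hp)).2 hp
    rw [h.φh.pow hn.1] at h1
    rw [← orderOf_eq_prime h3 hσ] at hm
    exact hm (orderOf_dvd_of_pow_eq_one h1)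
  have dD : n ^ m ∈ 𝒞[z] ⊓ 𝒞(Q) := pow_mem hn m
  obtain ⟨c, hc, hc'⟩ := h.Ssyl.exists_conj (MC3.isP_zpowers d3) (zpowers_le.2 dD.1)
  have hS := hc' _ (mem_zpowers _)
  have hD := conj_mem_of_norm (norm_cent h.nQ) hc dD.2
  set d := c * n ^ m * c⁻¹ with hd
  have dQ : d ∉ Q := fun hq => dP (by
    have := h.conjP (inv_mem hc) (h.QP hq)
    rwa [show c⁻¹ * d * c⁻¹⁻¹ = n ^ m by rw [hd]; group] at this)
  have hle : Q ⊔ zpowers d ≤ S := sup_le h.QS (zpowers_le.2 hS)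
  have h1 := three_mul_le (h.Ssyl.isP.to_le hle) (lt_of_le_of_ne (le_sup_left (a := Q) (b := zpowers d))
    fun e => dQ (e ▸ mem_sup_right (mem_zpowers d)))
  have h2 := h.card_le h.Ssyl.isP
  rw [h.card] at h1
  have e2 : Q ⊔ zpowers d = S := eq_of_le_of_card_ge hle (by omega)
  refine dQ (h.toE0.ZQ (h.Sz d hS ?_))
  rw [← e2, cent_sup, cent_zpowers]
  exact ⟨hD, self_mem_cent1 d⟩

theorem K_le : h.toE0.K ≤ P := by
  refine (h.normal_cases h.toE0.KC h.toE0.nK).resolve_right fun hs => ?_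
  obtain ⟨σ, -, -, h2, -, -, hσ, -⟩ := a5_four
  obtain ⟨k, hk, rfl⟩ := hs σ
  have h1 : k ^ 3 ∈ P := h.D_le ⟨pow_mem hk.1 3, fun q hq =>
    (h.toE0.cube_comm hk.1 (h.Qc hq) (hk.2 q hq)).symm⟩
  have h3 := (h.φker _ (h.Pc h1)).2 h1
  rw [h.φh.pow hk.1, pow_succ, pow_two, h2, one_mul] at h3
  exact hσ h3

theorem exists_five : ∃ f ∈ 𝒞[z], orderOf f = 5 ∧ f ∉ P := by
  have : Fact (Nat.Prime 5) := ⟨by decide⟩
  obtain ⟨f, hf⟩ := exists_prime_orderOf_dvd_card' (G := 𝒞[z]) 5 (by rw [h.cardC]; decide)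
  refine ⟨f, f.2, by rw [orderOf_coe, hf], fun hp => ?_⟩
  have := orderOf_dvd_natCard (⟨f, hp⟩ : P)
  rw [← orderOf_coe, h.cardP] at this
  change orderOf (f : G) ∣ _ at this
  rw [orderOf_coe, hf] at this
  omega

section five
variable {f : G} (hf : f ∈ 𝒞[z]) (h5 : orderOf f = 5) (hP : f ∉ P)
include hf h5 hP

theorem card_Q {W : Subgroup G} (hZ : zpowers z ≤ W) (hQ : W ≤ Q) :
    Nat.card W = 3 ∨ Nat.card W = 9 ∨ Nat.card W = 27 ∨ Nat.card W = 81 ∨ Nat.card W = 243 := by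
  obtain ⟨k, hk⟩ := MC3.card_pow_of_isP (h.toE0.Qp.to_le hQ)
  have h1 := card_le_of_le hZ
  have h2 := card_le_of_le hQ
  rw [h.toE0.cardZ, hk] at h1
  rw [h.card, hk] at h2
  have h3 : k < 6 := by
    by_contra hc
    have := Nat.pow_le_pow_right (n := 3) (by decide) (not_lt.1 hc)
    omega
  rw [hk]
  interval_cases k <;> simp at h1 ⊢

theorem cent_Q : Q ⊓ 𝒞[f] = zpowers z := by
  have hZ : zpowers z ≤ Q ⊓ 𝒞[f] := le_inf h.toE0.ZQ (zpowers_le.2 (mem_cent1_comm.1 hf))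
  have h1 := modEq_five h5 (h.nQ hf)
  have h2 := h.card_Q hf h5 hP hZ inf_le_left
  have h3 : Nat.card ↥(Q ⊓ 𝒞[f]) ≠ 243 := fun e => hP (h.D_le ⟨hf, le_cent1_iff.1 (by
    rw [← h.card] at e
    exact inf_eq_left.1 (eq_of_le_of_card_eq inf_le_left e))⟩)
  rw [h.card] at h1
  exact (eq_of_le_of_card_eq hZ (by rw [h.toE0.cardZ]; omega)).symm

theorem irr {W : Subgroup G} (hZ : zpowers z ≤ W) (hQ : W ≤ Q) (hn : f ∈ 𝒩(W)) :
    W = zpowers z ∨ W = Q := by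
  have h1 := modEq_five h5 hn
  have h2 := h.card_Q hf h5 hP hZ hQ
  have h3 : W ⊓ 𝒞[f] = zpowers z := le_antisymm
    ((inf_le_inf_right _ hQ).trans (h.cent_Q hf h5 hP).le)
    (le_inf hZ (zpowers_le.2 (mem_cent1_comm.1 hf)))
  rw [h3, h.toE0.cardZ] at h1
  by_cases e : Nat.card W = 3
  · exact Or.inl (eq_of_le_of_card_eq hZ (by rw [e, h.toE0.cardZ])).symm
  · exact Or.inr (eq_of_le_of_card_eq hQ (by rw [h.card]; omega))

theorem card_P {W : Subgroup G} (hQ : Q ≤ W) (hW : W ≤ P) :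
    Nat.card W = 243 ∨ Nat.card W = 486 ∨ Nat.card W = 972 ∨ Nat.card W = 1944 ∨
      Nat.card W = 3888 ∨ Nat.card W = 7776 := by
  have h1 := card_mul_relIndex hQ
  have h2 := card_mul_relIndex h.QP
  have h3 := relIndex_dvd_relIndex_of_le_right hQ hW
  rw [h.card] at h1 h2
  rw [h.cardP] at h2
  rw [show Q.relIndex P = 2 ^ 5 by omega, Nat.dvd_prime_pow Nat.prime_two] at h3
  obtain ⟨k, hk, e⟩ := h3
  rw [← h1, e]
  interval_cases k <;> simp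

theorem fix {W : Subgroup G} (hQ : Q ≤ W) (hW : W ≤ P) (hn : f ∈ 𝒩(W)) :
    Nat.card W % 5 = Nat.card ↥(Q ⊔ W ⊓ 𝒞[f]) % 5 := by
  have h1 := modEq_five h5 hn
  have h2 := card_sup_mul_card_inf (H := Q) (K := W ⊓ 𝒞[f])
    (Or.inr (inf_le_left.trans (hW.trans (h.Pc.trans h.nQ))))
  rw [← inf_assoc, inf_eq_left.2 hQ, h.cent_Q hf h5 hP, h.toE0.cardZ, h.card] at h2
  omega

theorem five_cases : f ∈ h.D2 ∨ ∀ W : Subgroup G, h.T0 ≤ W → W ≤ P → f ∈ 𝒩(W) → W = h.T0 ∨ W = P := by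
  have hT : h.T0 ≤ P := h.T0_le h.QP h.tP
  have c1 := h.fix hf h5 hP h.QP le_rfl (h.nP hf)
  have c2 := h.card_P hf h5 hP (le_sup_left (a := Q) (b := P ⊓ 𝒞[f])) (sup_le h.QP inf_le_left)
  rw [h.cardP] at c1
  by_cases e : Nat.card ↥(Q ⊔ P ⊓ 𝒞[f]) = 7776
  · have e2 : Q ⊔ P ⊓ 𝒞[f] = P := eq_of_le_of_card_eq (sup_le h.QP inf_le_left) (by rw [e, h.cardP])
    refine Or.inl ⟨hf, fun a ha => ?_⟩
    obtain ⟨q, hq, c, hc, rfl⟩ := (mem_sup_of_norm_left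
      (inf_le_left.trans (h.Pc.trans h.nQ))).1 (e2.ge ha)
    rw [h.ψh.mul _ (h.Qc hq) _ (h.Pc hc.1), (h.ψker q (h.Qc hq)).2 hq, one_mul]
    change ψ f * ψ c = ψ c * ψ f
    rw [← h.ψh.mul _ hf _ (h.Pc hc.1), ← h.ψh.mul _ (h.Pc hc.1) _ hf, mem_cent1.1 hc.2]
  · refine Or.inr fun W h1 h2 h3 => ?_
    have c3 := h.fix hf h5 hP h.QT0 hT (h.nT0 hf)
    have c4 := h.card_P hf h5 hP (le_sup_left (a := Q) (b := h.T0 ⊓ 𝒞[f]))
      (sup_le h.QP (inf_le_left.trans hT))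
    have c5 := h.fix hf h5 hP (h.QT0.trans h1) h2 h3
    have c6 := h.card_P hf h5 hP (h.QT0.trans h1) h2
    have c7 := card_le_of_le (sup_le_sup_left (inf_le_inf_right 𝒞[f] h1) Q)
    have c8 := card_le_of_le (sup_le_sup_left (inf_le_inf_right 𝒞[f] h2) Q)
    rw [h.cardT0] at c3
    by_cases e' : Nat.card W = 486
    · exact Or.inl (eq_of_le_of_card_eq h1 (by rw [e', h.cardT0])).symm
    · exact Or.inr (eq_of_le_of_card_eq h2 (by rw [h.cardP]; omega))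

end five

theorem four5 {N : Subgroup G} (hN : N ≤ 𝒞[z]) (hs : ∀ σ, ∃ n ∈ N, φ n = σ)
    (hK : ∀ g ∈ N, g ∈ P → g ∈ h.toE0.K) : False := by
  obtain ⟨σ, τ, ρ, e1, e2, e3, n1, n2, n3, m1, m2, m3⟩ := a5_four
  obtain ⟨s, hs', rfl⟩ := hs σ
  obtain ⟨u, hu, rfl⟩ := hs τ
  obtain ⟨c, hc, rfl⟩ := h.φsurj ρ
  have cs := hN hs'
  have cu := hN hu
  have inK : ∀ g ∈ N, φ g = 1 → g ∈ h.toE0.K := fun g hg e => hK g hg ((h.φker g (hN hg)).1 e)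
  have nK : ∀ g ∈ 𝒞[z], φ g ≠ 1 → g ∉ h.toE0.K := fun g hg e hk => e ((h.φker g hg).2 (h.K_le hk))
  have fin : ∀ g ∈ 𝒞[z], φ c * φ g * (φ c)⁻¹ * φ g ≠ 1 → ¬ Q ≤ h.toE0.Vs g (-1) := fun g hg e hv =>
    nK _ (mul_mem (mul_mem (mul_mem hc hg) (inv_mem hc)) hg)
      (by rwa [h.φh.mul _ (mul_mem (mul_mem hc hg) (inv_mem hc)) _ hg, h.φh.conj hc hg])
      (h.toE0.neg_central hg hc hv)
  rcases h.toE0.four cs cu (inK _ (mul_mem hs' hs') (by rw [h.φh.mul _ cs _ cs, e1]))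
    (inK _ (mul_mem hu hu) (by rw [h.φh.mul _ cu _ cu, e2]))
    (inK _ (mul_mem (mul_mem (mul_mem hs' hu) (inv_mem hs')) (inv_mem hu)) (by
      rw [h.φh.div (mul_mem (mul_mem cs cu) (inv_mem cs)) cu, h.φh.conj cs cu, e3]))
    (nK _ cs n1) (nK _ cu n2) (nK _ (mul_mem cs cu) (by rwa [h.φh.mul _ cs _ cu])) with e | e | e
  · exact fin s cs m1 e
  · exact fin u cu m2 e
  · exact fin _ (mul_mem cs cu) (by rwa [h.φh.mul _ cs _ cu]) e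

theorem K_eq : h.toE0.K ≤ Q := by
  intro k hk
  by_contra hkQ
  have h0 := h.toE0
  have ht : ∀ g ∈ h.toE0.K, ψ g = ψ t → t ∈ h.toE0.K := fun g hg e => by
    have := h.toE0.QK ((h.ψker _ (mul_mem (inv_mem hg.1) h.tC)).1 (by
      rw [h.ψh.mul _ (inv_mem hg.1) _ h.tC, h.ψh.inv hg.1, e]; simp))
    simpa using mul_mem hg this
  have tK : t ∈ h.toE0.K := by
    by_cases hc : ∀ b ∈ P, Commute (ψ k) (ψ b)
    · exact ht k hk ((h.Pcen k (h.K_le hk) hc).resolve_left fun e => hkQ ((h.ψker k hk.1).1 e))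
    · push Not at hc
      obtain ⟨b, hb, hc⟩ := hc
      have cb := h.Pc hb
      refine ht (k * b * k⁻¹ * b⁻¹) ?_ ?_
      · have := mul_mem hk (h.toE0.conj_K cb (inv_mem hk))
        convert this using 1; group
      · rw [h.ψh.div (mul_mem (mul_mem hk.1 cb) (inv_mem hk.1)) cb, h.ψh.conj hk.1 cb]
        refine (h.Pcomm k (h.K_le hk) b hb).resolve_left fun e => hc ?_
        rwa [mul_inv_eq_one, mul_inv_eq_iff_eq_mul] at e
  have TK : h.T0 ≤ h.toE0.K := h.T0_le h.toE0.QK tK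
  obtain ⟨f, hf, h5, hP⟩ := h.exists_five
  rcases h.five_cases hf h5 hP with e | e
  · refine h.four5 (N := h.D2) (fun _ e => e.1)
      ((h.normal_cases (N := h.D2) (fun _ e => e.1) h.nD2).resolve_left fun e' => hP (e' e)) fun g hg hg' => ?_
    exact TK ⟨hg.1, h.Pcen g hg' hg.2⟩
  rcases e _ TK h.K_le (h.toE0.nK hf) with e1 | e1
  swap
  · exact h.four5 le_rfl h.φsurj fun g _ hg => e1.ge hg
  obtain ⟨a, ha, b, hb, hc⟩ := h.nab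
  have ca := h.Pc ha
  have cb := h.Pc hb
  have cen : ∀ g ∈ h.toE0.K, ∀ x ∈ P, Commute (ψ g) (ψ x) := fun g hg x hx => by
    rcases (e1.le hg).2 with e' | e' <;> rw [e']
    · exact Commute.one_left _
    · exact (h.tc x hx).symm
  have na : a ∉ h.toE0.K := fun e' => hc (cen a e' b hb)
  have nb : b ∉ h.toE0.K := fun e' => hc (cen b e' a ha).symm
  have nab : a * b ∉ h.toE0.K := fun e' => hc (by
    have := cen _ e' a ha
    rw [h.ψh.mul _ ca _ cb] at this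
    have h2 := ((Commute.refl (ψ a)).inv_left.mul_left this).symm
    simpa using h2)
  have hW : h.Kpm ⊓ P = P := by
    have TW : h.T0 ≤ h.Kpm ⊓ P := le_inf (fun g hg => ⟨hg.1, Or.inl ((h.toE0.mem_K_iff hg.1).1 (TK hg))⟩)
      (h.T0_le h.QP h.tP)
    refine (e _ TW inf_le_right (norm_inf h.nKpm h.nP hf)).resolve_left fun e' => ?_
    have key : ∀ g ∈ P, g ∉ h.toE0.K → ¬ Q ≤ h.toE0.Vs g (-1) := fun g hg hn hv =>
      hn (TK (e'.le ⟨⟨h.Pc hg, Or.inr hv⟩, hg⟩))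
    rcases h.toE0.four ca cb (TK ⟨mul_mem ca ca, by rw [h.ψh.mul _ ca _ ca]; exact h.Psq a ha⟩)
      (TK ⟨mul_mem cb cb, by rw [h.ψh.mul _ cb _ cb]; exact h.Psq b hb⟩)
      (TK ⟨mul_mem (mul_mem (mul_mem ca cb) (inv_mem ca)) (inv_mem cb), by
        rw [h.ψh.div (mul_mem (mul_mem ca cb) (inv_mem ca)) cb, h.ψh.conj ca cb]
        exact h.Pcomm a ha b hb⟩) na nb nab with e2 | e2 | e2
    · exact key a ha na e2
    · exact key b hb nb e2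
    · exact key _ (mul_mem ha hb) nab e2
  have neg : ∀ g ∈ P, g ∉ h.toE0.K → Q ≤ h.toE0.Vs g (-1) := fun g hg hn =>
    (hW.ge hg).1.2.resolve_left fun e' => hn ((h.toE0.mem_K_iff (h.Pc hg)).2 e')
  exact nab ((h.toE0.mem_K_iff (mul_mem ca cb)).2 fun q hq => by
    simpa using h.toE0.Vs_mul ca cb (neg a ha na hq) (neg b hb nb hq))

theorem tneg : Q ≤ h.toE0.Vs t (-1) := by
  obtain ⟨f, hf, h5, hP⟩ := h.exists_five
  have hk : t * f * t⁻¹ * f⁻¹ ∈ h.toE0.K := h.toE0.QK ((h.ψker _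
    (mul_mem (mul_mem (mul_mem h.tC hf) (inv_mem h.tC)) (inv_mem hf))).1 (by
      rw [h.ψh.div (mul_mem (mul_mem h.tC hf) (inv_mem h.tC)) hf, h.ψh.conj h.tC hf]
      calc ψ t * ψ f * (ψ t)⁻¹ * (ψ f)⁻¹ = ψ t * (ψ f * ψ t * (ψ f)⁻¹)⁻¹ := by group
        _ = 1 := by rw [h.tcC hf]; group))
  have hn : f ∈ 𝒩(h.toE0.Vs t (-1)) := mem_norm_of_cj_le fun q hq => by
    obtain ⟨y, hy, rfl⟩ := mem_cj'.1 hq
    exact h.toE0.Vs_norm hf h.tC hk hy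
  refine ((h.irr hf h5 hP (h.toE0.Z_le_Vs _ _) (h.toE0.Vs_le _ _) hn).resolve_left fun e => ?_).ge
  have tt : t * t ∈ h.toE0.K := h.toE0.QK ((h.ψker _ (mul_mem h.tC h.tC)).1 (by
    rw [h.ψh.mul _ h.tC _ h.tC, h.tsq]))
  refine h.tne ((h.ψker t h.tC).2 (h.K_eq ((h.toE0.mem_K_iff h.tC).2 fun q hq => ?_)))
  obtain ⟨p, hp, n, hn, rfl⟩ := h.toE0.decomp h.tC tt le_rfl h.toE0.ZQ
    (fun w hw => h.toE0.conjQ h.tC hw) hq
  exact mul_mem hp.2 (h.toE0.Z_le_Vs _ _ (e.le hn.2))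

theorem fa : FA z t Q P := by
  have h0 := h.toE0
  have neg : ∀ q ∈ Q, ∃ c ∈ zpowers z, t * q * t⁻¹ = q⁻¹ * c := fun q hq =>
    h0.eqv (h.Qc (h0.conjQ h.tC hq)) (inv_mem (h.Qc hq)) (by
      rw [h.ph.conj h.tC (h.Qc hq), (h.tneg hq).2, h.ph.inv (h.Qc hq), zpow_neg_one])
  have tr : ∀ g ∈ 𝒞[z], (ψ g = 1 ∨ ψ g = ψ t) → g ∈ Q ∨ g * t ∈ Q := fun g hg e =>
    e.imp (h.ψker g hg).1 fun e => (h.ψker _ (mul_mem hg h.tC)).1 (by
      rw [h.ψh.mul _ hg _ h.tC, e, h.tsq])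
  exact
    { z3 := h.z3
      zQ := h.zQ
      Qc := h.Qc
      comm := fun a ha b hb => (h0.br (h.Qc ha) (h.Qc hb)).2 (h.comm a ha b hb)
      cen := h.cen
      exp := fun q hq => by
        obtain ⟨c, hc, e⟩ := neg q hq
        have h3 := h0.cube hq
        have e1 := conj_Z h3 h.tC
        have cc : Commute q⁻¹ c := (comm_Z hc (inv_mem (h.Qc hq))).symm
        rw [← conj_pow, e, cc.mul_pow, h0.Zcube hc, mul_one] at e1
        refine h0.Z_eq_one h3 ?_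
        nth_rewrite 1 [← e1]
        group
      card := h.card
      nQ := h.nQ'
      faith := fun g hg hc => h.K_eq ⟨hg, fun q hq => (h0.br hg (h.Qc hq)).1 (hc q hq)⟩
      syl := h.syl
      cardC := h.cardC
      QP := h.QP
      Pc := h.Pc
      nP := h.nP
      cardP := h.cardP
      tP := h.tP
      tneg := fun q hq => by
        obtain ⟨c, hc, e⟩ := neg q hq
        rw [e, mul_assoc, comm_Z hc (h.Qc hq)]
        simpa using hc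
      Pcomm := fun a ha b hb => tr _ (mul_mem (mul_mem (mul_mem (h.Pc ha) (h.Pc hb))
        (inv_mem (h.Pc ha))) (inv_mem (h.Pc hb))) (by
          rw [h.ψh.div (mul_mem (mul_mem (h.Pc ha) (h.Pc hb)) (inv_mem (h.Pc ha))) (h.Pc hb),
            h.ψh.conj (h.Pc ha) (h.Pc hb)]
          exact h.Pcomm a ha b hb)
      Psq := fun a ha => tr _ (mul_mem (h.Pc ha) (h.Pc ha)) (by
        rw [h.ψh.mul _ (h.Pc ha) _ (h.Pc ha)]; exact h.Psq a ha)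
      Pcen := fun a ha hc => tr a (h.Pc ha) (h.Pcen a ha fun b hb => by
        have := (h.ψker _ (h.Qc (hc b hb))).2 (hc b hb)
        rw [h.ψh.div (mul_mem (mul_mem (h.Pc ha) (h.Pc hb)) (inv_mem (h.Pc ha))) (h.Pc hb),
          h.ψh.conj (h.Pc ha) (h.Pc hb), mul_inv_eq_one, mul_inv_eq_iff_eq_mul] at this
        exact this)
      nwc := h.nwc }

end H1

end Cfsg.Agent.T3
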