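/-
Project T3: from the hypotheses of the recognition theorem to `FA`.
-/
import Cfsg.Agent.T3.Fr1b
import Cfsg.Agent.H49.Core
import Cfsg.Agent.H3.PGroup
import Cfsg.Prelude.Def_Solvable
import Cfsg.Prelude.Def_CaseTheorems
import Cfsg.Prelude.Def_Transfer

set_option autoImplicit false
set_option linter.unusedSectionVars false
set_option linter.unusedVariables false
set_option linter.unusedSimpArgs false

namespace Cfsg.Agent.T3

open Subgroup H49
open scoped commutatorElement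

variable {G : Type*} [Group G] [Finite G]

theorem centre_eq (S : Sylow 3 G) (Z : Subgroup G) (hZ : Z = (S : Subgroup G) ⊓ 𝒞((S : Subgroup G)))
    (C : Subgroup G) (hCZ : C = 𝒞(Z)) (hQ : IsExtraspecial 3 (pCore 3 C)) :
    Nat.card Z = 3 ∧ Z = (pCore 3 C).map C.subtype ⊓ 𝒞((pCore 3 C).map C.subtype) ∧
      ∀ a ∈ (pCore 3 C).map C.subtype, ∀ b ∈ (pCore 3 C).map C.subtype, a * b * a⁻¹ * b⁻¹ ∈ Z := by
  have : Fact (Nat.Prime 3) := ⟨Nat.prime_three⟩
  set Q := (pCore 3 C).map C.subtype with hQd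
  have SC : (S : Subgroup G) ≤ C := by
    rw [hCZ, cent_comm, hZ]; exact inf_le_right
  have ZS : Z ≤ S := hZ ▸ inf_le_left
  have QC : Q ≤ C := map_subtype_le _
  have nQ : C ≤ 𝒩(Q) := norm_map_subtype _
  have Qp : IsPGroup 3 Q := hQ.1.1.map _
  have QS : Q ≤ S := MC3.le_syl_of_norm (H42.sylIn_of_le S SC) Qp QC (Or.inr (SC.trans nQ))
  have eN : Q ⊓ 𝒞(Q) = (center (pCore 3 C)).map (C.subtype.comp (pCore 3 C).subtype) := by
    ext a
    constructor
    · rintro ⟨⟨b, hb, rfl⟩, h2⟩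
      exact ⟨⟨b, hb⟩, mem_center_iff.2 fun c => Subtype.ext (Subtype.ext (h2 _ ⟨c, c.2, rfl⟩)), rfl⟩
    · rintro ⟨b, hb, rfl⟩
      refine ⟨⟨b, b.2, rfl⟩, ?_⟩
      rintro _ ⟨c, hc, rfl⟩
      exact congrArg (fun x : pCore 3 C => ((x : C) : G)) (mem_center_iff.1 hb ⟨c, hc⟩)
  have cN : Nat.card ↥(Q ⊓ 𝒞(Q)) = 3 := by
    rw [eN, card_map_of_injective (f := C.subtype.comp (pCore 3 C).subtype)
      (C.subtype_injective.comp (pCore 3 C).subtype_injective), hQ.2]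
  have hp : (Nat.card ↥(Q ⊓ 𝒞(Q))).Prime := cN ▸ Nat.prime_three
  have h1 : Z ≤ Q ⊓ 𝒞(Q) := by
    refine le_inf ?_ (cent_symm (QC.trans hCZ.le))
    have hn : (Z.subgroupOf C).Normal := normal_subgroupOf (hCZ.le.trans (cent_le_norm Z))
    have hle : Z.subgroupOf C ≤ pCore 3 C := le_sSup ⟨hn, (S.isPGroup'.to_le ZS).comap_subtype⟩
    intro a ha
    exact ⟨⟨a, SC (ZS ha)⟩, hle ha, rfl⟩
  have h2 : Q ⊓ 𝒞(Q) ≤ Z := by
    have := inf_center_ne_bot_of_nilpotent (N := Q ⊓ 𝒞(Q)) (K := S) S.isPGroup'.isNilpotent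
      (inf_le_left.trans QS) (norm_inf (SC.trans nQ) (norm_cent (SC.trans nQ))) (ne_bot_of_prime_card hp)
    rw [hZ]
    exact le_inf (inf_le_left.trans QS) ((inf_eq_bot_or_le_of_prime_card hp _).resolve_left this)
  have e := le_antisymm h1 h2
  refine ⟨e ▸ cN, e, ?_⟩
  rintro _ ⟨a, ha, rfl⟩ _ ⟨b, hb, rfl⟩
  rw [e, eN]
  refine ⟨⁅(⟨a, ha⟩ : pCore 3 C), ⟨b, hb⟩⁆, ?_, rfl⟩
  rw [← hQ.1.2.2]
  exact commutator_mem_commutator (mem_top _) (mem_top _)

theorem fr1 (S : Sylow 3 G) (Z : Subgroup G)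
    (hZ : Z = (S : Subgroup G) ⊓ Subgroup.centralizer ((S : Subgroup G) : Set G))
    (C : Subgroup G) (hCZ : C = Subgroup.centralizer (Z : Set G))
    (hQ : IsExtraspecial 3 (pCore 3 C)) (hQcard : Nat.card (pCore 3 C) = 3 ^ 5)
    (hR : IsExtraspecial 2 (pCore 2 (C ⧸ pCore 3 C)))
    (hRcard : Nat.card (pCore 2 (C ⧸ pCore 3 C)) = 2 ^ 5)
    (e : (C ⧸ pCore 3 C) ⧸ pCore 2 (C ⧸ pCore 3 C) ≃* alternatingGroup (Fin 5))
    (hnwc : ¬ IsWeaklyClosed Z S) : ∃ (z t : G) (Q P : Subgroup G), FA z t Q P := by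
  have : Fact (Nat.Prime 3) := ⟨Nat.prime_three⟩
  have : Fact (Nat.Prime 2) := ⟨Nat.prime_two⟩
  obtain ⟨cZ, eZ, hcomm⟩ := centre_eq S Z hZ C hCZ hQ
  have hp : (Nat.card Z).Prime := cZ ▸ Nat.prime_three
  obtain ⟨z, hz, hz1⟩ := ne_bot_iff_exists.1 (ne_bot_of_prime_card hp)
  have ez : zpowers z = Z :=
    (eq_bot_or_eq_of_prime_card hp (zpowers_le.2 hz)).resolve_left (by simpa using hz1)
  subst ez
  rw [cent_zpowers] at hCZ
  subst hCZ
  have SC : (S : Subgroup G) ≤ 𝒞[z] := by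
    rw [← cent_zpowers, cent_comm, hZ]; exact inf_le_right
  have c60 : Nat.card A5 = 60 := by
    have := two_mul_nat_card_alternatingGroup (α := Fin 5)
    rw [Nat.card_perm, Nat.card_eq_fintype_card (α := Fin 5), Fintype.card_fin] at this
    change 2 * Nat.card A5 = 120 at this
    omega
  set O := pCore 3 𝒞[z] with hO
  set Pb := pCore 2 (𝒞[z] ⧸ O) with hPb
  have cC : Nat.card 𝒞[z] = 243 * 1920 := by
    rw [card_eq_card_quotient_mul_card_subgroup O, card_eq_card_quotient_mul_card_subgroup Pb,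
      Nat.card_congr e.toEquiv, c60, hQcard, hRcard]
    rfl
  have hn : ((zpowers z).subgroupOf 𝒞[z]).Normal := normal_subgroupOf (c1_le_norm z)
  obtain ⟨π, πh, πe⟩ := MC3.exists_PH (QuotientGroup.mk' ((zpowers z).subgroupOf 𝒞[z]))
  obtain ⟨ψ, ψh, ψe⟩ := MC3.exists_PH (QuotientGroup.mk' O)
  obtain ⟨φ, φh, φe⟩ := MC3.exists_PH
    (e.toMonoidHom.comp ((QuotientGroup.mk' Pb).comp (QuotientGroup.mk' O)))
  set Q := O.map (𝒞[z]).subtype with hQd
  set P := (Pb.comap (QuotientGroup.mk' O)).map (𝒞[z]).subtype with hPd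
  have QC : Q ≤ 𝒞[z] := map_subtype_le _
  have PC : P ≤ 𝒞[z] := map_subtype_le _
  have πker : ∀ g ∈ 𝒞[z], π g = 1 ↔ g ∈ zpowers z := fun g hg => by
    rw [πe ⟨g, hg⟩]; exact QuotientGroup.eq_one_iff _
  have ψker : ∀ g ∈ 𝒞[z], ψ g = 1 ↔ g ∈ Q := fun g hg => by
    rw [ψe ⟨g, hg⟩]
    exact (QuotientGroup.eq_one_iff _).trans
      (mem_map_iff_mem (𝒞[z]).subtype_injective (x := ⟨g, hg⟩)).symm
  have memP : ∀ g ∈ 𝒞[z], g ∈ P ↔ ψ g ∈ Pb := fun g hg => by
    rw [ψe ⟨g, hg⟩]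
    exact mem_map_iff_mem (𝒞[z]).subtype_injective (x := ⟨g, hg⟩)
  have φker : ∀ g ∈ 𝒞[z], φ g = 1 ↔ g ∈ P := fun g hg => by
    rw [memP g hg, φe ⟨g, hg⟩, ψe ⟨g, hg⟩]
    exact (MulEquiv.map_eq_one_iff e).trans (QuotientGroup.eq_one_iff _)
  have lift : ∀ b : 𝒞[z] ⧸ O, ∃ g ∈ 𝒞[z], ψ g = b := fun b => by
    obtain ⟨g, rfl⟩ := QuotientGroup.mk'_surjective O b
    exact ⟨g, g.2, ψe g⟩
  have φsurj : ∀ σ, ∃ g ∈ 𝒞[z], φ g = σ := fun σ => by
    obtain ⟨b, hb⟩ := QuotientGroup.mk'_surjective Pb (e.symm σ)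
    obtain ⟨g, rfl⟩ := QuotientGroup.mk'_surjective O b
    exact ⟨g, g.2, by rw [φe g]; change e _ = σ; rw [← e.apply_symm_apply σ, ← hb]; rfl⟩
  obtain ⟨τ, hτ, hτ'⟩ := (Nat.card_eq_two_iff' (1 : center Pb)).1 hR.2
  obtain ⟨t, htC, ht⟩ := lift ((τ : Pb) : 𝒞[z] ⧸ O)
  have cen2 : ∀ x : Pb, x ∈ center Pb → (x : 𝒞[z] ⧸ O) = 1 ∨ (x : 𝒞[z] ⧸ O) = ψ t := fun x hx => by
    by_cases h1 : (⟨x, hx⟩ : center Pb) = 1
    · exact Or.inl (congrArg (fun y : center Pb => ((y : Pb) : 𝒞[z] ⧸ O)) h1)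
    · exact Or.inr (by rw [ht, ← hτ' _ h1])
  have tne : ψ t ≠ 1 := fun h1 => hτ (Subtype.ext (Subtype.ext (ht ▸ h1)))
  have H : H1 z t Q P S π ψ φ :=
    { z3 := by rw [← Nat.card_zpowers, cZ]
      zQ := (eZ.le hz).1
      Qc := QC
      cen := fun a ha hc => eZ.ge ⟨ha, fun b hb => (hc b hb).symm⟩
      card := by rw [hQd, card_map_of_injective (𝒞[z]).subtype_injective, hQcard]; rfl
      nQ := norm_map_subtype _
      ph := πh
      ker := πker
      comm := fun a ha b hb => by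
        have := (πker _ (QC (eZ.le (hcomm a ha b hb)).1)).2 (hcomm a ha b hb)
        rw [πh.div (mul_mem (mul_mem (QC ha) (QC hb)) (inv_mem (QC ha))) (QC hb),
          πh.conj (QC ha) (QC hb), mul_inv_eq_one, mul_inv_eq_iff_eq_mul] at this
        exact this
      nQ' := by
        rw [hQd, hO, pCore_map_subtype Nat.prime_three]
        exact norm_piCoreOf _ (by rw [← cent_zpowers]; exact norm_cent le_rfl)
      syl := fun hd => by
        have h1 := (S.pow_dvd_card_of_pow_dvd_card hd).trans (card_dvd_of_le SC)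
        rw [cC] at h1
        exact absurd h1 (by decide)
      cardC := cC
      QP := fun q hq => (memP q (QC hq)).2 (by rw [(ψker q (QC hq)).2 hq]; exact one_mem _)
      Pc := PC
      nP := norm_map_subtype _
      cardP := by
        have h1 := φh.card φker
        have h2 : φh.im = ⊤ := eq_top_iff.2 fun σ _ => (MC3.PH.mem_im _).2 (φsurj σ)
        rw [h2, card_top, c60, cC, inf_eq_left.2 PC] at h1
        omega
      tP := (memP t htC).2 (ht ▸ (τ : Pb).2)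
      ψh := ψh
      ψker := ψker
      tne := tne
      tsq := by
        rcases cen2 _ (mul_mem τ.2 τ.2) with h1 | h1
        · rw [ht]; exact h1
        · rw [coe_mul, ← ht] at h1
          exact absurd (mul_eq_left.1 h1) tne
      tc := fun a ha => by
        rw [ht]
        exact congrArg Subtype.val (mem_center_iff.1 τ.2 ⟨ψ a, (memP a (PC ha)).1 ha⟩)
      Pcomm := fun a ha b hb =>
        cen2 ⁅(⟨ψ a, (memP a (PC ha)).1 ha⟩ : Pb), ⟨ψ b, (memP b (PC hb)).1 hb⟩⁆ (by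
          rw [← hR.1.2.2]; exact commutator_mem_commutator (mem_top _) (mem_top _))
      Psq := fun a ha => by
        have := cen2 _ (hR.1.2.1 ▸ H3.pow_mem_frattini hR.1.1 ⟨ψ a, (memP a (PC ha)).1 ha⟩)
        rwa [pow_two] at this
      Pcen := fun a ha hc => cen2 ⟨ψ a, (memP a (PC ha)).1 ha⟩ (mem_center_iff.2 fun b => by
        obtain ⟨g, hg, e'⟩ := lift b
        refine Subtype.ext ?_
        change (b : 𝒞[z] ⧸ O) * ψ a = ψ a * b
        rw [← e']
        exact (hc g ((memP g hg).2 (e' ▸ b.2))).symm.eq)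
      nab := by
        by_contra hc
        push Not at hc
        have h1 : center Pb = ⊤ := eq_top_iff.2 fun a _ => mem_center_iff.2 fun b => by
          obtain ⟨g, hg, e1⟩ := lift a
          obtain ⟨k, hk, e2⟩ := lift b
          refine Subtype.ext ?_
          change (b : 𝒞[z] ⧸ O) * a = a * b
          rw [← e1, ← e2]
          exact (hc k ((memP k hk).2 (e2 ▸ b.2)) g ((memP g hg).2 (e1 ▸ a.2))).eq
        have h2 := hR.2
        rw [h1, card_top, hRcard] at h2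
        omega
      φh := φh
      φker := φker
      φsurj := φsurj
      Ssyl := H42.sylIn_of_le S SC
      Sz := fun s hs hc => hZ.ge ⟨hs, hc⟩
      nwc := by
        by_contra hc
        push Not at hc
        refine hnwc ⟨hZ ▸ inf_le_left, fun g hg => ?_⟩
        rw [map_conj_eq_cj, cj_zpowers] at hg ⊢
        refine eq_of_le_of_card_eq (zpowers_le.2 (hc g (SC (hg (mem_zpowers _))))) ?_
        rw [← cj_zpowers, card_cj] }
  exact ⟨z, t, Q, P, H.fa⟩

end Cfsg.Agent.T3
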